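import Cfsg.Agent.Lib.BrauerPairs.Maximal

/-!
# Blocks of defect zero and the sum over a `p`-subgroup in the group algebra
-/

set_option autoImplicit false
set_option linter.unusedSectionVars false
set_option linter.style.haveILetI false

namespace Cfsg.Agent.Lib.SLBlocks

open Cfsg Cfsg.Agent.Lib.Block Cfsg.Agent.Lib.BrauerPairs

universe u

/-- The sum of the elements of a set in the group algebra. -/
noncomputable def indic (k : Type*) [CommRing k] {G : Type*} [Group G] [Finite G] (S : Set G) :
    MonoidAlgebra k G :=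
  ofFun (S.indicator fun _ => 1)

section Indic

variable {k : Type*} [CommRing k] {G : Type*} [Group G] [Finite G]

theorem coeff_indic_mul [Fintype G] (S : Set G) [Fintype S] (w : MonoidAlgebra k G) (x : G) :
    (indic k S * w).coeff x = ∑ s : S, w.coeff ((s : G)⁻¹ * x) := by
  classical
  rw [coeff_mul_eq_sum]
  simp only [indic, coeff_ofFun, Set.indicator_apply, ite_mul, one_mul, zero_mul]
  rw [← Finset.sum_filter]
  exact Finset.sum_subtype _ (by simp) _

theorem coeff_mul_indic [Fintype G] (S : Set G) [Fintype S] (w : MonoidAlgebra k G) (x : G) :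
    (w * indic k S).coeff x = ∑ s : S, w.coeff (x * (s : G)⁻¹) := by
  classical
  rw [coeff_mul_eq_sum']
  simp only [indic, coeff_ofFun, Set.indicator_apply, mul_ite, mul_one, mul_zero]
  rw [← Finset.sum_filter]
  exact Finset.sum_subtype _ (by simp) _

theorem coeff_mul_single_one (w : MonoidAlgebra k G) (g x : G) :
    (w * MonoidAlgebra.single g 1).coeff x = w.coeff (x * g⁻¹) := by
  rw [MonoidAlgebra.coeff_mul_single_apply, mul_one]

theorem coeff_single_one_mul (w : MonoidAlgebra k G) (g x : G) :
    (MonoidAlgebra.single g 1 * w).coeff x = w.coeff (g⁻¹ * x) := by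
  rw [MonoidAlgebra.coeff_single_mul_apply, one_mul]

theorem single_mul_indic (U : Subgroup G) {u : G} (hu : u ∈ U) :
    MonoidAlgebra.single u 1 * indic k (U : Set G) = indic k (U : Set G) := by
  classical
  refine alg_ext fun x => ?_
  simp only [coeff_single_one_mul, indic, coeff_ofFun, Set.indicator_apply, SetLike.mem_coe,
    U.mul_mem_cancel_left (inv_mem hu)]

theorem indic_mul_single (U : Subgroup G) {u : G} (hu : u ∈ U) :
    indic k (U : Set G) * MonoidAlgebra.single u 1 = indic k (U : Set G) := by
  classical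
  refine alg_ext fun x => ?_
  simp only [coeff_mul_single_one, indic, coeff_ofFun, Set.indicator_apply, SetLike.mem_coe,
    U.mul_mem_cancel_right (inv_mem hu)]

theorem single_mul_indic_comm (U : Subgroup G) {t : G}
    (ht : ∀ x : G, x ∈ U ↔ t * x * t⁻¹ ∈ U) :
    MonoidAlgebra.single t 1 * indic k (U : Set G) =
      indic k (U : Set G) * MonoidAlgebra.single t 1 := by
  classical
  refine alg_ext fun x => ?_
  simp only [coeff_single_one_mul, coeff_mul_single_one, indic, coeff_ofFun, Set.indicator_apply,
    SetLike.mem_coe]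
  rw [ht (t⁻¹ * x), show t * (t⁻¹ * x) * t⁻¹ = x * t⁻¹ by group]

end Indic

variable {p : ℕ} {M : Ideal AlgInt} [M.IsPrime] {G : Type u} [Group G] [Finite G]

theorem coeff_bar_centralizes (hM : IsPModular p M) {B : Set (IrrCharacter G)}
    (hB : IsPBlock M B) (h0 : blockDefect p B = 0) {a z : G} (ha : a ≠ 1) (hap : a ^ p = 1)
    (hc : a * z = z * a) : (bar M B).coeff z = 0 := by
  haveI : Fact p.Prime := ⟨hM.1⟩
  by_contra h
  rw [coeff_bar] at h
  have h1 := factorization_le_blockDefect_of_support hM hB h
  rw [h0] at h1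
  have ho : orderOf (⟨a, Subgroup.mem_centralizer_singleton_iff.2 hc⟩ :
      Subgroup.centralizer ({z} : Set G)) = p := by
    rw [Subgroup.orderOf_mk]
    exact orderOf_eq_prime hap ha
  have h2 := ho ▸ orderOf_dvd_natCard (⟨a, Subgroup.mem_centralizer_singleton_iff.2 hc⟩ :
      Subgroup.centralizer ({z} : Set G))
  have := (hM.1.dvd_iff_one_le_factorization Nat.card_pos.ne').1 h2
  omega

/-- Products with a block of defect zero vanish at `y` when an element of order `p` stabilises the
situation at `y`. -/
theorem coeff_bar_mul_eq_zero (hM : IsPModular p M) {B : Set (IrrCharacter G)}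
    (hB : IsPBlock M B) (h0 : blockDefect p B = 0) {a a' y : G} (ha : a ≠ 1) (hap : a ^ p = 1)
    (hy : y⁻¹ * a * y = a') {h : MonoidAlgebra (ResField M) G}
    (hl : MonoidAlgebra.single a 1 * h = h) (hr : h * MonoidAlgebra.single a' 1 = h) :
    (bar M B * h).coeff y = 0 := by
  classical
  haveI : Fact p.Prime := ⟨hM.1⟩
  haveI := resField_charP (M := M) hM
  haveI := Fintype.ofFinite G
  rw [coeff_mul_eq_sum]
  set f : G → ResField M := fun z => (bar M B).coeff z * h.coeff (z⁻¹ * y) with hf
  have hgen : ∀ z, f (a * z * a⁻¹) = f z := by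
    intro z
    have h1 : ∀ w, h.coeff (a⁻¹ * w) = h.coeff w := fun w => by
      rw [← coeff_single_one_mul h a w, hl]
    have h2 : ∀ w, h.coeff (w * a'⁻¹) = h.coeff w := fun w => by
      rw [← coeff_mul_single_one h a' w, hr]
    simp only [hf, (isClassCoeff_bar (M := M) B) a z]
    congr 1
    rw [← h1 ((a * z * a⁻¹)⁻¹ * y), ← h2 (z⁻¹ * y), ← hy]
    congr 1
    group
  have hpow : ∀ (j : ℕ) (z : G), f (a ^ j * z * (a ^ j)⁻¹) = f z := by
    intro j
    induction j with
    | zero => simp
    | succ j ih =>
      intro z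
      rw [← ih z, ← hgen (a ^ j * z * (a ^ j)⁻¹)]
      congr 1
      rw [pow_succ']
      group
  have hP : IsPGroup p (Subgroup.zpowers a) := IsPGroup.of_card (n := 1) (by
    rw [Nat.card_zpowers, orderOf_eq_prime hap ha, pow_one])
  rw [sum_conj_eq_sum_centralizer (p := p) hP f fun u hu z => ?_]
  · refine Finset.sum_eq_zero fun z hz => ?_
    simp only [hf]
    rw [coeff_bar_centralizes hM hB h0 ha hap
      (Subgroup.mem_centralizer_iff.1 (Finset.mem_filter.1 hz).2 a (Subgroup.mem_zpowers a)),
      zero_mul]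
  · obtain ⟨j, rfl⟩ := (isOfFinOrder_of_finite a).mem_powers_iff_mem_zpowers.2 hu
    exact hpow j z

/-- A block idempotent does not annihilate the sum over a `p`-subgroup. -/
theorem bar_mul_indic_ne_zero (hM : IsPModular p M) {B : Set (IrrCharacter G)}
    (hB : IsPBlock M B) {U : Subgroup G} (hU : IsPGroup p U) :
    bar M B * indic (ResField M) (U : Set G) ≠ 0 := by
  classical
  haveI : Fact p.Prime := ⟨hM.1⟩
  haveI := resField_charP (M := M) hM
  haveI := Fintype.ofFinite G
  haveI := Fintype.ofFinite U
  intro hzero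
  let ψ := ZMod.castHom (dvd_refl p) (ResField M)
  let φ : (U → ZMod p) →+ MonoidAlgebra (ResField M) G :=
    { toFun := fun c => (∑ s : U, MonoidAlgebra.single (s : G) (ψ (c s))) * bar M B
      map_zero' := by simp
      map_add' := fun c d => by
        simp [map_add, MonoidAlgebra.single_add, Finset.sum_add_distrib, add_mul] }
  have hstep : ∀ (u : U) (c : U → ZMod p), MonoidAlgebra.single (u : G) 1 * φ c =
      φ (fun s => c (u⁻¹ * s)) := by
    intro u c
    simp only [φ, AddMonoidHom.coe_mk, ZeroHom.coe_mk]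
    rw [← mul_assoc, Finset.mul_sum]
    congr 1
    refine Fintype.sum_equiv (Equiv.mulLeft u) _ _ fun s => ?_
    rw [MonoidAlgebra.single_mul_single, one_mul]
    simp
  letI : MulAction U φ.range :=
    { smul := fun u v => ⟨MonoidAlgebra.single (u : G) 1 * v.1, by
        obtain ⟨c, hc⟩ := v.2
        exact ⟨_, by rw [← hc, hstep]⟩⟩
      one_smul := fun v => Subtype.ext (by
        show MonoidAlgebra.single ((1 : U) : G) (1 : ResField M) * v.1 = v.1
        rw [Subgroup.coe_one, ← MonoidAlgebra.one_def, one_mul])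
      mul_smul := fun u u' v => Subtype.ext (by
        show MonoidAlgebra.single ((u * u' : U) : G) (1 : ResField M) * v.1 =
          MonoidAlgebra.single (u : G) 1 * (MonoidAlgebra.single (u' : G) 1 * v.1)
        rw [← mul_assoc, MonoidAlgebra.single_mul_single, one_mul, Subgroup.coe_mul]) }
  haveI : Finite φ.range := Finite.of_surjective _ φ.rangeRestrict_surjective
  have hbar : bar M B ∈ φ.range := ⟨fun s => if s = 1 then 1 else 0, by
    show (∑ s : U, MonoidAlgebra.single (s : G) (ψ (if s = 1 then 1 else 0))) * bar M B = bar M B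
    rw [Finset.sum_eq_single (1 : U) (fun s _ hs => by simp [hs]) (fun h => absurd (Finset.mem_univ _) h)]
    simp [← MonoidAlgebra.one_def]⟩
  have hdvd : p ∣ Nat.card φ.range := by
    have h1 : addOrderOf (⟨bar M B, hbar⟩ : φ.range) = p := by
      refine addOrderOf_eq_prime (Subtype.ext ?_) fun h => bar_ne_zero hB (congrArg Subtype.val h)
      rw [AddSubgroup.coe_nsmul, ← Nat.cast_smul_eq_nsmul (ResField M), CharP.cast_eq_zero,
        zero_smul]
      rfl
    exact (dvd_of_eq h1.symm).trans (addOrderOf_dvd_natCard _)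
  obtain ⟨⟨w, c, hc⟩, hw, hw0⟩ := hU.exists_fixed_point_of_prime_dvd_card_of_fixed_point φ.range
    hdvd (a := 0) (fun u => Subtype.ext (mul_zero _))
  have hwe : bar M B * w = w := by
    rw [← hc]
    show bar M B * ((∑ s : U, _) * bar M B) = (∑ s : U, _) * bar M B
    rw [← mul_assoc, ((isClassCoeff_bar B).commute _).eq, mul_assoc, (isIdempotentElem_bar hB).eq]
  have hfix : ∀ (u : U) (x : G), w.coeff ((u : G)⁻¹ * x) = w.coeff x := fun u x => by
    rw [← coeff_single_one_mul w (u : G) x]
    exact congrArg (fun v : φ.range => v.1.coeff x) (hw u)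
  let rep : G → G := fun x => ((x⁻¹ : G) : G ⧸ U).out⁻¹
  have hrep : ∀ x, x * (rep x)⁻¹ ∈ U := fun x => by
    have h := QuotientGroup.eq.1 (Quotient.out_eq ((x⁻¹ : G) : G ⧸ U))
    have h2 := inv_mem h
    simpa [rep] using h2
  have hrepU : ∀ (s : U) (x : G), rep ((s : G) * x) = rep x := fun s x => by
    simp only [rep, mul_inv_rev]
    rw [QuotientGroup.mk_mul_of_mem _ (inv_mem s.2)]
  have hw' : w = indic (ResField M) (U : Set G) *
      ofFun (fun x => if x = rep x then w.coeff x else 0) := by
    refine alg_ext fun x => ?_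
    rw [coeff_indic_mul]
    simp only [coeff_ofFun]
    let s₀ : U := ⟨x * (rep x)⁻¹, hrep x⟩
    rw [Finset.sum_eq_single (⟨s₀.1, s₀.2⟩ : (U : Set G))]
    · rw [if_pos]
      · exact (hfix s₀ x).symm
      · show (x * (rep x)⁻¹)⁻¹ * x = rep ((x * (rep x)⁻¹)⁻¹ * x)
        rw [hrepU ⟨_, inv_mem (hrep x)⟩ x]
        group
    · intro s _ hs
      rw [if_neg]
      intro h
      refine hs (Subtype.ext ?_)
      show (s : G) = x * (rep x)⁻¹
      rw [← hrepU ⟨_, inv_mem s.2⟩ x, ← h]
      group
    · exact fun h => absurd (Finset.mem_univ _) h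
  refine hw0 (Subtype.ext ?_)
  show (0 : MonoidAlgebra (ResField M) G) = w
  rw [← hwe, hw', ← mul_assoc, hzero, zero_mul]

theorem lam_single_central (χ : IrrCharacter G) {z : G} (hz : z ∈ Subgroup.center G) :
    lam M χ (MonoidAlgebra.single z (1 : ResField M)) = redC M (centralChar (χ : G → ℂ) z) := by
  classical
  simp only [lam]
  have hout : (ConjClasses.mk z).out = z := by
    obtain ⟨c, hc⟩ := isConj_iff.1 (ConjClasses.mk_eq_mk_iff_isConj.1
      (Quotient.out_eq (ConjClasses.mk z)).symm)
    rw [Subgroup.mem_center_iff.1 hz c, mul_inv_cancel_right] at hc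
    exact hc.symm
  rw [@Finset.sum_eq_single _ _ _ _ _ (ConjClasses.mk z)]
  · rw [hout, coeff_single_if, if_pos rfl, one_mul]
  · intro C _ hC
    rw [coeff_single_if, if_neg, zero_mul]
    intro h
    exact hC (by rw [← h]; exact (Quotient.out_eq C).symm)
  · exact fun h => absurd (@Finset.mem_univ _ (_) _) h

/-- A central element fixing a nonzero multiple of a block idempotent has trivial central
character on the block. -/
theorem redC_centralChar_eq_one (hM : IsPModular p M) {B : Set (IrrCharacter G)}
    (hB : IsPBlock M B) {χ : IrrCharacter G} (hχ : χ ∈ B) {z : G}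
    (hz : z ∈ Subgroup.center G) {h : MonoidAlgebra (ResField M) G}
    (hne : bar M B * h ≠ 0)
    (hfix : MonoidAlgebra.single z 1 * (bar M B * h) = bar M B * h) :
    redC M (centralChar (χ : G → ℂ) z) = 1 := by
  classical
  haveI : Fact p.Prime := ⟨hM.1⟩
  haveI := resField_charP (M := M) hM
  haveI : CharP (MonoidAlgebra (ResField M) G) p :=
    charP_of_injective_algebraMap (R := ResField M)
      (algebraMap (ResField M) (MonoidAlgebra (ResField M) G)).injective p
  set c := redC M (centralChar (χ : G → ℂ) z) with hc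
  set s : MonoidAlgebra (ResField M) G := MonoidAlgebra.single z 1 with hs
  have hscl : IsClassCoeff s := isClassCoeff_iff_commute.2 fun b => by
    induction b using MonoidAlgebra.induction_linear with
    | zero => exact Commute.zero_right _
    | add x y hx hy => exact hx.add_right hy
    | single g r =>
      rw [hs, Commute, SemiconjBy, MonoidAlgebra.single_mul_single,
        MonoidAlgebra.single_mul_single, Subgroup.mem_center_iff.1 hz g, one_mul, mul_one]
  have hN : IsNilpotent (bar M B * (s - c • 1)) := by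
    refine isNilpotent_of_lam_eq_zero
      ((isClassCoeff_bar B).mul (hscl.sub (isClassCoeff_one.smul c))) fun ξ => ?_
    rw [lam_mul ξ (isClassCoeff_bar B) (hscl.sub (isClassCoeff_one.smul c)), lam_bar hB, lam_sub,
      lam_smul, lam_one, mul_one]
    split_ifs with hξ
    · rw [hs, lam_single_central ξ hz, hc, sameBlock_iff.1 (sameBlock_of_mem hB hξ hχ) z, sub_self,
        mul_zero]
    · rw [zero_mul]
  obtain ⟨m, hm⟩ := hN
  have hmul : (s - c • 1) * (bar M B * h) = (1 - c) • (bar M B * h) := by
    rw [sub_mul, hfix, smul_one_mul, sub_smul, one_smul]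
  have hpow : ∀ j : ℕ, (s - c • 1) ^ j * (bar M B * h) = (1 - c) ^ j • (bar M B * h) := by
    intro j
    induction j with
    | zero => simp
    | succ j ih => rw [pow_succ, mul_assoc, hmul, mul_smul_comm, ih, smul_smul, ← pow_succ']
  have h2 : (bar M B * (s - c • 1)) ^ (m + 1) * (bar M B * h) =
      (1 - c) ^ (m + 1) • (bar M B * h) := by
    rw [((isClassCoeff_bar B).commute _).mul_pow, (isIdempotentElem_bar hB).pow_succ_eq,
      mul_assoc, hpow, mul_smul_comm, ← mul_assoc, (isIdempotentElem_bar hB).eq]
  rw [pow_succ, hm, zero_mul, zero_mul, eq_comm, smul_eq_zero] at h2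
  exact (sub_eq_zero.1 (eq_zero_of_pow_eq_zero (h2.resolve_right hne))).symm

end Cfsg.Agent.Lib.SLBlocks
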