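import Cfsg.Agent.Lib.SLBlocks.Main
import Cfsg.Agent.Lib.Char.Scalar
import Cfsg.Agent.Lib.Char.Kazarin

/-!
# The Steinberg character of `PSL_n`
-/

set_option autoImplicit false
set_option linter.unusedSectionVars false
set_option linter.style.haveILetI false

namespace Cfsg.Agent.Lib.SLBlocks

open Cfsg Cfsg.Agent.Lib.Block Cfsg.Agent.Lib.GLFlag Matrix Finset

universe u

/-- A central element of order prime to `p` with trivial central character modulo `M` is in the
kernel. -/
theorem apply_eq_one_of_redC {G : Type u} [Group G] [Finite G] {p : ℕ} {M : Ideal AlgInt}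
    [M.IsPrime] (hM : IsPModular p M) (χ : IrrCharacter G) {z : G} (hz : z ∈ Subgroup.center G)
    (hreg : ¬ p ∣ orderOf z) (h : redC M (centralChar (χ : G → ℂ) z) = 1) :
    (χ : G → ℂ) z = (χ : G → ℂ) 1 := by
  set c := (χ : G → ℂ) z / (χ : G → ℂ) 1 with hc
  have hd := deg_ne_zero χ
  have hcc : centralChar (χ : G → ℂ) z = c := by
    rw [centralChar, show (Subgroup.centralizer ({z} : Set G)).index = 1 by
      rw [Subgroup.index_eq_one, Subgroup.eq_top_iff']
      exact fun g => Subgroup.mem_centralizer_singleton_iff.2 (Subgroup.mem_center_iff.1 hz g),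
      Nat.cast_one, one_mul]
  have hpow : ∀ k : ℕ, (χ : G → ℂ) (z ^ k) = c ^ k * (χ : G → ℂ) 1 := by
    intro k
    induction k with
    | zero => rw [pow_zero, pow_zero, one_mul]
    | succ k ih =>
      have h1 := (Char.apply_mul_of_norm_eq (Char.isCharacter_of_isIrr χ.2)
        (Char.norm_char_of_mem_center χ.2 hz) (z ^ k)).1
      rw [ih, ← pow_succ'] at h1
      apply mul_right_cancel₀ hd
      rw [h1, hc, pow_succ]
      field_simp
  have hfin : c ^ orderOf z = 1 := by
    have h1 := hpow (orderOf z)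
    rw [pow_orderOf_eq_one] at h1
    exact mul_right_cancel₀ hd (h1.symm.trans (one_mul _).symm)
  suffices hc1 : c = 1 by
    rw [hc, div_eq_one_iff_eq hd] at hc1
    exact hc1
  by_contra hne
  obtain ⟨r, hr, hrd⟩ := Nat.exists_prime_and_dvd (n := orderOf c)
    (fun h1 => hne (orderOf_eq_one_iff.1 h1))
  have hdvd := orderOf_dvd_of_pow_eq_one hfin
  have hrp : r ≠ p := fun h1 => hreg (h1 ▸ hrd.trans hdvd)
  have hfin' : IsOfFinOrder c := isOfFinOrder_iff_pow_eq_one.2 ⟨_, orderOf_pos z, hfin⟩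
  have hcl : c ∈ locRing M := integral_mem_locRing
    (IsIntegral.of_pow (orderOf_pos z) (by rw [hfin]; exact isIntegral_one))
  have hred : ∀ i : ℕ, redC M (c ^ i) = 1 := fun i => by
    rw [redC_pow hcl, ← hcc, h, one_pow]
  have hroot := Kazarin.redC_root_eq_one hM hr hrp (z := c ^ (orderOf c / r))
    (by rw [← pow_mul, Nat.div_mul_cancel hrd, pow_orderOf_eq_one]) (hred _)
  have hpos := hfin'.orderOf_pos
  have hle := Nat.le_of_dvd (Nat.div_pos (Nat.le_of_dvd hpos hrd) hr.pos)
    (orderOf_dvd_of_pow_eq_one hroot)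
  exact absurd (Nat.div_lt_self hpos hr.one_lt) (not_lt.2 hle)

variable {F : Type u} [Field F] [Fintype F] {p : ℕ} [Fact p.Prime] [CharP F p]

theorem prod_qfac_eq (q n : ℕ) : ∏ i : Fin n, qfac q (1 + (i : ℕ)) =
    qfac q n * ∏ i : Fin n, ∏ j ∈ Finset.univ.filter (fun j : Fin n => i < j),
      qf q ((j : ℕ) - i) := by
  induction n with
  | zero => simp [qfac]
  | succ n ih =>
    rw [Fin.prod_univ_castSucc, Fin.prod_univ_succ (f := fun i : Fin (n + 1) =>
      ∏ j ∈ Finset.univ.filter (fun j : Fin (n + 1) => i < j), qf q ((j : ℕ) - i))]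
    simp only [Finset.prod_filter, Fin.prod_univ_succ, Fin.val_zero, Fin.val_succ, Fin.succ_pos,
      if_true, lt_irrefl, if_false, one_mul, Fin.not_lt_zero, Fin.succ_lt_succ_iff,
      Nat.succ_sub_succ_eq_sub, Nat.sub_zero, Fin.val_castSucc, Fin.val_last]
    simp only [Finset.prod_filter] at ih
    rw [ih, add_comm 1 n]
    have hq : ∏ i : Fin n, qf q ((i : ℕ) + 1) = qfac q n := by
      rw [qfac, Fin.prod_univ_eq_prod_range (fun i => qf q (i + 1))]
    rw [hq]
    ring

/-- The degree of the Steinberg character of `GL_n`. -/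
theorem steinberg_degree_eq (n : ℕ) {d : ℕ}
    (hd : unipotentCharacterGL n F (fun _ => 1) 1 = (d : ℂ)) :
    d = Fintype.card F ^ n.choose 2 := by
  have h := steinberg_degree n hd
  have hq1 : 1 ≤ Fintype.card F := Fintype.card_pos
  have h0 : (∏ i : Fin n, qfac (Fintype.card F) (1 + (i : ℕ))) ≠ 0 :=
    Finset.prod_ne_zero_iff.2 fun i _ => (qfac_pos hq1 _).ne'
  rw [mul_left_comm (qfac (Fintype.card F) n), ← prod_qfac_eq, ← mul_assoc] at h
  have h2 := Nat.eq_of_mul_eq_mul_right (Nat.pos_of_ne_zero h0) h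
  rw [Nat.choose_succ_succ' n 2, show (2 + 1 : ℕ) = 3 from rfl, pow_add] at h2
  exact Nat.eq_of_mul_eq_mul_right (pow_pos hq1 _) h2

/-- `PSL_n` has an irreducible character of degree the order of a Sylow `p`-subgroup. -/
theorem exists_steinberg_PSL (n : ℕ) (hn : 2 ≤ n) :
    ∃ χ : ProjectiveSpecialLinearGroup (Fin n) F → ℂ,
      IsIrrCharacter (ProjectiveSpecialLinearGroup (Fin n) F) χ ∧
      ∀ P : Sylow p (ProjectiveSpecialLinearGroup (Fin n) F), χ 1 = Nat.card P ∧
        ∀ x, x ∈ P → x ≠ 1 → χ x = 0 := by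
  classical
  have hp : p.Prime := Fact.out
  obtain ⟨M, hM⟩ := exists_isPModular hp
  haveI := hM.2.1.isPrime
  haveI := Fintype.ofFinite (SpecialLinearGroup (Fin n) F)
  set G := SpecialLinearGroup (Fin n) F
  obtain ⟨B, St, d, hB, h0, hSt, hd, hdvd⟩ := exists_defectZero (F := F) hM n (by omega)
  rw [steinberg_degree_eq n hd] at hdvd
  obtain ⟨a, -, hq⟩ := FiniteField.card F p
  have hfac : (Nat.card G).factorization p ≤ (charDegree (St : G → ℂ)).factorization p :=
    (Nat.sub_eq_zero_iff_le.1 h0).trans (Nat.sInf_le ⟨St, hSt, rfl⟩)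
  have hdeg : charDegree (St : G → ℂ) = p ^ (Nat.card G).factorization p := by
    refine Nat.dvd_antisymm ?_ ((hp.pow_dvd_iff_le_factorization (charDegree_pos St).ne').2 hfac)
    rw [card_SL_factorization (by omega), hq, hp.factorization_pow, Finsupp.single_eq_same]
    rwa [hq, ← pow_mul] at hdvd
  have hcop : ¬ p ∣ Nat.card (Subgroup.center G) := center_coprime (by omega)
  have htriv : ∀ z ∈ Subgroup.center G, (St : G → ℂ) z = (St : G → ℂ) 1 := fun z hz =>
    apply_eq_one_of_redC hM St hz (fun h => hcop (h.trans (by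
      rw [← Subgroup.orderOf_mk z hz]; exact orderOf_dvd_natCard _)))
      (center_defectZero hM hB h0 hSt hz)
  obtain ⟨ψ, hψ, he⟩ := Char.exists_irr_deflation St.2 (Subgroup.center G) htriv
  have hcard : (Nat.card (G ⧸ Subgroup.center G)).factorization p =
      (Nat.card G).factorization p := by
    have h1 := congrArg (fun m => Nat.factorization m p)
      (Subgroup.card_eq_card_quotient_mul_card_subgroup (Subgroup.center G))
    simp only [Nat.factorization_mul Nat.card_pos.ne' Nat.card_pos.ne', Finsupp.add_apply,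
      Nat.factorization_eq_zero_of_not_dvd hcop, add_zero] at h1
    have h2 := Nat.factorization_eq_zero_of_not_dvd hcop
    omega
  have hψ1 : charDegree ψ = charDegree (St : G → ℂ) := by
    have h2 := he 1
    rw [QuotientGroup.mk_one] at h2
    rw [charDegree, h2]
    rfl
  refine ⟨ψ, hψ, fun P => ⟨?_, fun x hx hx1 => ?_⟩⟩
  · rw [Char.apply_one_eq_charDegree (Char.isCharacter_of_isIrr hψ), hψ1, hdeg, ← hcard]
    exact congrArg Nat.cast P.card_eq_multiplicity.symm
  · haveI := Fintype.ofFinite (G ⧸ Subgroup.center G)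
    refine Char.apply_eq_zero_of_defect_zero hψ hp (by rw [hψ1, hdeg, hcard]) ?_
    obtain ⟨k, hk⟩ := IsPGroup.iff_orderOf.1 P.2 ⟨x, hx⟩
    rw [Subgroup.orderOf_mk] at hk
    rw [hk]
    exact dvd_pow_self p fun h => hx1 (orderOf_eq_one_iff.1 (by rw [hk, h, pow_zero]))

end Cfsg.Agent.Lib.SLBlocks
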