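import Cfsg.Agent.Lib.SLBlocks.Main
import Cfsg.Agent.Lib.Char.Scalar
import Mathlib.LinearAlgebra.Matrix.FixedDetMatrices

/-!
# The blocks of `SL_2(q)`, `q` odd, in the defining characteristic
-/

set_option autoImplicit false
set_option linter.unusedSectionVars false
set_option linter.style.haveILetI false

namespace Cfsg.Agent.Lib.SLBlocks

open Cfsg Cfsg.Agent.Lib.Block Matrix

universe u

theorem isDefectGroup_sylow {G : Type u} [Group G] [Finite G] {p : ℕ} {M : Ideal AlgInt}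
    [M.IsPrime] (hM : IsPModular p M) {B : Set (IrrCharacter G)} (hB : IsPBlock M B)
    (hfull : blockDefect p B = (Nat.card G).factorization p) (P : Sylow p G) :
    IsDefectGroup p M B (P : Subgroup G) := by
  haveI : Fact p.Prime := ⟨hM.1⟩
  obtain ⟨D, hD⟩ := exists_isDefectGroup hM hB
  obtain ⟨hDp, hDc, -⟩ := IsDefectGroup.props hM hB hD
  obtain ⟨S, hS⟩ := hDp.exists_le_sylow
  obtain ⟨x, hx⟩ := MulAction.exists_smul_eq G S P
  have hDS : D = (S : Subgroup G) := Subgroup.eq_of_le_of_card_ge hS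
    (by rw [hDc, hfull, S.card_eq_multiplicity])
  have h := IsDefectGroup.map_conj hM hB hD x
  rw [← hx, Sylow.coe_subgroup_smul, show ((S : Subgroup G)) = D from hDS.symm]
  exact h

/-- A central involution takes the values `± χ(1)`. -/
theorem apply_involution {G : Type u} [Group G] [Finite G] (χ : IrrCharacter G) {z : G}
    (hz : z ∈ Subgroup.center G) (h2 : z * z = 1) :
    (χ : G → ℂ) z = (χ : G → ℂ) 1 ∨ (χ : G → ℂ) z = -(χ : G → ℂ) 1 := by
  have h := (Char.apply_mul_of_norm_eq (Char.isCharacter_of_isIrr χ.2)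
    (Char.norm_char_of_mem_center χ.2 hz) z).1
  rw [h2] at h
  exact mul_self_eq_mul_self_iff.1 h.symm

variable {F : Type u} [Field F] [Fintype F] {p : ℕ} [Fact p.Prime] [CharP F p]
  {M : Ideal AlgInt} [M.IsPrime]

theorem neg_one_mem_center :
    (-1 : SpecialLinearGroup (Fin 2) F) ∈ Subgroup.center (SpecialLinearGroup (Fin 2) F) :=
  Subgroup.mem_center_iff.2 fun g => by rw [mul_neg, mul_one, neg_mul, one_mul]

theorem neg_one_ne (hp : p ≠ 2) : (-1 : SpecialLinearGroup (Fin 2) F) ≠ 1 := fun h => by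
  have h1 := congrArg (fun g : SpecialLinearGroup (Fin 2) F => (g : Matrix (Fin 2) (Fin 2) F) 0 0) h
  have h2 : (-1 : F) = 1 := by simpa using h1
  have h4 : ((2 : ℕ) : F) = 0 := by
    push_cast
    linear_combination (-1 : F) * h2
  exact hp ((Nat.prime_dvd_prime_iff_eq Fact.out Nat.prime_two).1
    ((CharP.cast_eq_zero_iff F p 2).1 h4))

/-- The sign of a character modulo `M` is a block invariant. -/
theorem sign_eq (hM : IsPModular p M) (hp : p ≠ 2)
    {χ ψ : IrrCharacter (SpecialLinearGroup (Fin 2) F)}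
    (h : redC M (centralChar (χ : SpecialLinearGroup (Fin 2) F → ℂ) (-1)) =
      redC M (centralChar (ψ : SpecialLinearGroup (Fin 2) F → ℂ) (-1)))
    (hχ : (χ : SpecialLinearGroup (Fin 2) F → ℂ) (-1) =
      (χ : SpecialLinearGroup (Fin 2) F → ℂ) 1) :
    (ψ : SpecialLinearGroup (Fin 2) F → ℂ) (-1) =
      (ψ : SpecialLinearGroup (Fin 2) F → ℂ) 1 := by
  have hidx : (Subgroup.centralizer ({(-1 : SpecialLinearGroup (Fin 2) F)} :
      Set (SpecialLinearGroup (Fin 2) F))).index = 1 := by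
    rw [Subgroup.index_eq_one, Subgroup.eq_top_iff']
    intro g
    exact Subgroup.mem_centralizer_singleton_iff.2
      (Subgroup.mem_center_iff.1 neg_one_mem_center g)
  rcases apply_involution ψ neg_one_mem_center (by rw [neg_mul_neg, one_mul]) with h' | h'
  · exact h'
  · exfalso
    simp only [centralChar, hidx, Nat.cast_one, one_mul, hχ, h', neg_div,
      div_self (deg_ne_zero χ), div_self (deg_ne_zero ψ)] at h
    have hm1 : (-1 : ℂ) ∈ locRing M := neg_mem (one_mem _)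
    have h2 : redC M ((2 : ℕ) : ℂ) = 0 := by
      rw [show ((2 : ℕ) : ℂ) = 1 - (-1) by norm_num, redC_sub (one_mem _) hm1, h, sub_self]
    exact hp ((Nat.prime_dvd_prime_iff_eq hM.1 Nat.prime_two).1
      ((redC_natCast_eq_zero_iff hM).1 h2))

theorem steinberg_degree_two {d : ℕ}
    (hd : unipotentCharacterGL 2 F (fun _ => 1) 1 = (d : ℂ)) : d = Fintype.card F := by
  have h := steinberg_degree 2 hd
  have hfilt0 : Finset.univ.filter (fun j : Fin 2 => (0 : Fin 2) < j) = {1} := by decide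
  have hfilt1 : Finset.univ.filter (fun j : Fin 2 => (1 : Fin 2) < j) = ∅ := by decide
  simp only [Fin.prod_univ_two, hfilt0, hfilt1, Finset.prod_singleton, Finset.prod_empty,
    Fin.val_zero, Fin.val_one, mul_one] at h
  norm_num [GLFlag.qfac, GLFlag.qf, Finset.prod_range_succ, Finset.sum_range_succ,
    Nat.choose] at h
  rw [mul_comm (1 + Fintype.card F)] at h
  exact Nat.eq_of_mul_eq_mul_right (by omega) h

/-- The three blocks of `SL_2(q)` for odd `q`. -/
theorem blocks_two (hM : IsPModular p M) (hp : p ≠ 2) :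
    (∀ B : Set (IrrCharacter (SpecialLinearGroup (Fin 2) F)), IsPBlock M B ↔
      (B = {χ : IrrCharacter (SpecialLinearGroup (Fin 2) F) | (χ : SpecialLinearGroup (Fin 2) F → ℂ) 1 = (Fintype.card F : ℂ)} ∨
       B = {χ : IrrCharacter (SpecialLinearGroup (Fin 2) F) | (χ : SpecialLinearGroup (Fin 2) F → ℂ) (-1) =
          (χ : SpecialLinearGroup (Fin 2) F → ℂ) 1 ∧
          (χ : SpecialLinearGroup (Fin 2) F → ℂ) 1 ≠ (Fintype.card F : ℂ)} ∨
       B = {χ : IrrCharacter (SpecialLinearGroup (Fin 2) F) | (χ : SpecialLinearGroup (Fin 2) F → ℂ) (-1) =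
          -(χ : SpecialLinearGroup (Fin 2) F → ℂ) 1})) ∧
    Nat.card {B : Set (IrrCharacter (SpecialLinearGroup (Fin 2) F)) // IsPBlock M B} = 3 ∧
    ∀ P : Sylow p (SpecialLinearGroup (Fin 2) F),
      IsDefectGroup p M {χ : IrrCharacter (SpecialLinearGroup (Fin 2) F) | (χ : SpecialLinearGroup (Fin 2) F → ℂ) (-1) =
          (χ : SpecialLinearGroup (Fin 2) F → ℂ) 1 ∧
          (χ : SpecialLinearGroup (Fin 2) F → ℂ) 1 ≠ (Fintype.card F : ℂ)}
        (P : Subgroup (SpecialLinearGroup (Fin 2) F)) ∧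
      IsDefectGroup p M {χ : IrrCharacter (SpecialLinearGroup (Fin 2) F) | (χ : SpecialLinearGroup (Fin 2) F → ℂ) (-1) =
          -(χ : SpecialLinearGroup (Fin 2) F → ℂ) 1}
        (P : Subgroup (SpecialLinearGroup (Fin 2) F)) := by
  classical
  haveI := Fintype.ofFinite (SpecialLinearGroup (Fin 2) F)
  set G := SpecialLinearGroup (Fin 2) F with hG
  set q := Fintype.card F with hqdef
  obtain ⟨a, -, hq⟩ := FiniteField.card F p
  have hcard : (Nat.card G).factorization p = a := by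
    rw [hG, card_SL_factorization (by norm_num), hq, hM.1.factorization_pow, Finsupp.single_eq_same,
      Nat.choose_self, mul_one]
  obtain ⟨B0, St, d, hB0, h00, hSt, hd, hdvd⟩ := exists_defectZero (F := F) hM 2 two_pos
  rw [steinberg_degree_two hd] at hdvd
  have hStq : charDegree (St : G → ℂ) = q := by
    refine Nat.dvd_antisymm hdvd ?_
    rw [hqdef, hq]
    refine (hM.1.pow_dvd_iff_le_factorization (charDegree_pos St).ne').2 ?_
    have h1 := (Nat.sub_eq_zero_iff_le.1 h00).trans (Nat.sInf_le ⟨St, hSt, rfl⟩)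
    rw [hcard] at h1
    exact h1
  have hdeg : ∀ χ : IrrCharacter G, (χ : G → ℂ) 1 = (q : ℂ) ↔ χ = St := by
    intro χ
    constructor
    · intro h
      rw [irr_one_eq_natCast, Nat.cast_inj] at h
      have hvan : ∀ x : G, p ∣ orderOf x → (χ : G → ℂ) x = 0 := fun x hx =>
        Char.apply_eq_zero_of_defect_zero χ.2 hM.1 (by rw [h, hcard, hqdef, hq]) hx
      have h0 := blockDefect_eq_zero_of_vanish hM ⟨χ, rfl⟩ (mem_blockOf_self χ) hvan
      have he := defectZero_unique hM ⟨χ, rfl⟩ hB0 h0 h00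
      exact eq_of_defect_zero hM hB0 h00 hSt (he ▸ mem_blockOf_self χ)
    · rintro rfl
      rw [irr_one_eq_natCast, hStq]
  have hB0eq : B0 = {χ : IrrCharacter G | (χ : G → ℂ) 1 = (q : ℂ)} := Set.ext fun χ =>
    ⟨fun h => (hdeg χ).2 (eq_of_defect_zero hM hB0 h00 hSt h), fun h => (hdeg χ).1 h ▸ hSt⟩
  have hSt1 : (St : G → ℂ) (-1) = (St : G → ℂ) 1 := by
    have h1 := center_defectZero hM hB0 h00 hSt neg_one_mem_center
    have h0 := center_defectZero hM hB0 h00 hSt (one_mem _)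
    rcases apply_involution St neg_one_mem_center (by rw [neg_mul_neg, one_mul]) with h' | h'
    · exact h'
    · exfalso
      have hidx : ∀ z : G, z ∈ Subgroup.center G →
          (Subgroup.centralizer ({z} : Set G)).index = 1 := fun z hz => by
        rw [Subgroup.index_eq_one, Subgroup.eq_top_iff']
        exact fun g => Subgroup.mem_centralizer_singleton_iff.2 (Subgroup.mem_center_iff.1 hz g)
      simp only [centralChar, hidx _ neg_one_mem_center, Nat.cast_one, one_mul, h', neg_div,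
        div_self (deg_ne_zero St)] at h1
      have hm1 : (-1 : ℂ) ∈ locRing M := neg_mem (one_mem _)
      have h2 : redC M ((2 : ℕ) : ℂ) = 0 := by
        rw [show ((2 : ℕ) : ℂ) = 1 - (-1) by norm_num, redC_sub (one_mem _) hm1, h1, redC_one,
          sub_self]
      exact hp ((Nat.prime_dvd_prime_iff_eq hM.1 Nat.prime_two).1
        ((redC_natCast_eq_zero_iff hM).1 h2))
  let χ1 : IrrCharacter G := ⟨fun _ => 1, Char.isIrrCharacter_one⟩
  obtain ⟨χm, hχm⟩ : ∃ χ : IrrCharacter G, (χ : G → ℂ) (-1) = -(χ : G → ℂ) 1 := by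
    by_contra hcon
    push Not at hcon
    exact neg_one_ne (F := F) hp (Char.eq_one_of_forall_irr fun χ =>
      (apply_involution χ neg_one_mem_center (by rw [neg_mul_neg, one_mul])).resolve_right (hcon χ))
  have hsame : ∀ {χ ψ : IrrCharacter G}, ψ ∈ blockOf M (χ : G → ℂ) →
      (χ : G → ℂ) (-1) = (χ : G → ℂ) 1 → (ψ : G → ℂ) (-1) = (ψ : G → ℂ) 1 := fun {χ ψ} h hχ =>
    sign_eq hM hp (sameBlock_iff.1 h (-1)) hχ
  have hnot : ∀ χ : IrrCharacter G, (χ : G → ℂ) (-1) = (χ : G → ℂ) 1 →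
      ¬ (χ : G → ℂ) (-1) = -(χ : G → ℂ) 1 := fun χ h h' => by
    rw [h] at h'
    exact deg_ne_zero χ (by linear_combination h' / 2)
  set B1 := blockOf M (χ1 : G → ℂ)
  set B2 := blockOf M (χm : G → ℂ)
  have hB1 : IsPBlock M B1 := ⟨χ1, rfl⟩
  have hB2 : IsPBlock M B2 := ⟨χm, rfl⟩
  have hq1 : 1 < q := Fintype.one_lt_card
  have h10 : B0 ≠ B1 := fun h => by
    have h1 : χ1 ∈ B0 := h ▸ mem_blockOf_self χ1
    rw [hB0eq, Set.mem_ofPred_eq] at h1
    have : (1 : ℕ) = q := Nat.cast_injective (R := ℂ) (by rw [Nat.cast_one]; exact h1)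
    omega
  have h20 : B0 ≠ B2 := fun h => by
    have h1 : χm = St := eq_of_defect_zero hM hB0 h00 hSt (h ▸ mem_blockOf_self χm)
    exact hnot St hSt1 (h1 ▸ hχm)
  have h12 : B1 ≠ B2 := fun h =>
    hnot χm (hsame (χ := χ1) (show χm ∈ B1 from h.symm ▸ mem_blockOf_self χm) rfl) hχm
  have hcount : Nat.card {B : Set (IrrCharacter G) // IsPBlock M B} = 3 := by
    refine (card_blocks hM le_rfl).trans ?_
    have heven : 2 ∣ Fintype.card F - 1 := by
      rw [hq]
      have hodd : Odd (p ^ (a : ℕ)) := (hM.1.odd_of_ne_two hp).pow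
      rw [← even_iff_two_dvd]
      exact Nat.Odd.sub_odd hodd odd_one
    rw [Nat.gcd_eq_left heven]
  haveI := Fintype.ofFinite {B : Set (IrrCharacter G) // IsPBlock M B}
  have hall : ∀ B, IsPBlock M B → B = B0 ∨ B = B1 ∨ B = B2 := by
    intro B hB
    have huniv : ({⟨B0, hB0⟩, ⟨B1, hB1⟩, ⟨B2, hB2⟩} :
        Finset {B : Set (IrrCharacter G) // IsPBlock M B}) = Finset.univ := by
      rw [← Finset.card_eq_iff_eq_univ, ← Nat.card_eq_fintype_card, hcount]
      rw [Finset.card_eq_three]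
      exact ⟨_, _, _, fun h => h10 (congrArg Subtype.val h), fun h => h20 (congrArg Subtype.val h),
        fun h => h12 (congrArg Subtype.val h), rfl⟩
    have hm := Finset.mem_univ (⟨B, hB⟩ : {B : Set (IrrCharacter G) // IsPBlock M B})
    rw [← huniv] at hm
    simpa using hm
  have hcase : ∀ χ : IrrCharacter G, χ ∈ B0 ∨ χ ∈ B1 ∨ χ ∈ B2 := fun χ => by
    rcases hall _ ⟨χ, rfl⟩ with h | h | h
    · exact Or.inl (h ▸ mem_blockOf_self χ)
    · exact Or.inr (Or.inl (h ▸ mem_blockOf_self χ))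
    · exact Or.inr (Or.inr (h ▸ mem_blockOf_self χ))
  have hB1pos : ∀ χ ∈ B1, (χ : G → ℂ) (-1) = (χ : G → ℂ) 1 := fun χ h => hsame h rfl
  have hB2neg : ∀ χ ∈ B2, (χ : G → ℂ) (-1) = -(χ : G → ℂ) 1 := fun χ h => by
    rcases apply_involution χ neg_one_mem_center (by rw [neg_mul_neg, one_mul]) with h' | h'
    · exact absurd hχm (hnot χm (hsame (χ := χ)
        ((mem_iff_sameBlock hB2 h).1 (mem_blockOf_self χm)) h'))
    · exact h'
  have hB1eq : B1 = {χ : IrrCharacter G | (χ : G → ℂ) (-1) = (χ : G → ℂ) 1 ∧ (χ : G → ℂ) 1 ≠ (q : ℂ)} :=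
    Set.ext fun χ => ⟨fun h => ⟨hB1pos χ h, fun hc =>
      h10 (eq_of_mem_of_mem hB0 hB1 (hB0eq ▸ hc) h)⟩, fun ⟨h1, h2⟩ => by
      rcases hcase χ with h | h | h
      · exact absurd (hB0eq ▸ h : χ ∈ {χ : IrrCharacter G | (χ : G → ℂ) 1 = (q : ℂ)}) h2
      · exact h
      · exact absurd (hB2neg χ h) (hnot χ h1)⟩
  have hB2eq : B2 = {χ : IrrCharacter G | (χ : G → ℂ) (-1) = -(χ : G → ℂ) 1} :=
    Set.ext fun χ => ⟨hB2neg χ, fun h1 => by
      rcases hcase χ with h | h | h
      · exact absurd h1 (hnot χ (eq_of_defect_zero hM hB0 h00 hSt h ▸ hSt1))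
      · exact absurd h1 (hnot χ (hB1pos χ h))
      · exact h⟩
  have hfull : ∀ B, IsPBlock M B → B ≠ B0 →
      blockDefect p B = (Nat.card G).factorization p := fun B hB hne =>
    blockDefect_full hM two_pos hB fun h0 => hne (defectZero_unique hM hB hB0 h0 h00)
  rw [← hB1eq, ← hB2eq, ← hB0eq]
  exact ⟨fun B => ⟨hall B, by rintro (rfl | rfl | rfl) <;> assumption⟩, hcount,
    fun P => ⟨isDefectGroup_sylow hM hB1 (hfull _ hB1 h10.symm) P,
      isDefectGroup_sylow hM hB2 (hfull _ hB2 h20.symm) P⟩⟩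

end Cfsg.Agent.Lib.SLBlocks
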