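import Cfsg.Agent.Lib.SLBlocks.Matrices
import Cfsg.Agent.Lib.SLBlocks.DefectZero

/-!
# At most one block of defect zero of `SL_n` in the defining characteristic
-/

set_option autoImplicit false
set_option linter.unusedSectionVars false
set_option linter.style.haveILetI false

namespace Cfsg.Agent.Lib.SLBlocks

open Cfsg Cfsg.Agent.Lib.Block Cfsg.Agent.Lib.BrauerPairs Matrix

universe u

variable {F : Type u} [Field F] {n : ℕ}

/-- `[1 t; 0 1]`. -/
def x2 (t : F) : SpecialLinearGroup (Fin 2) F := ⟨!![1, t; 0, 1], by simp [det_fin_two]⟩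

/-- `[1 0; t 1]`. -/
def y2 (t : F) : SpecialLinearGroup (Fin 2) F := ⟨!![1, 0; t, 1], by simp [det_fin_two]⟩

/-- `[0 1; -1 0]`. -/
def s2 : SpecialLinearGroup (Fin 2) F := ⟨!![0, 1; -1, 0], by simp [det_fin_two]⟩

/-- `[c 0; 0 c⁻¹]`. -/
def d2 (c : Fˣ) : SpecialLinearGroup (Fin 2) F :=
  ⟨!![(c : F), 0; 0, (c⁻¹ : Fˣ)], by simp [det_fin_two]⟩

theorem coe2_mul (A B : SpecialLinearGroup (Fin 2) F) :
    ((A * B : SpecialLinearGroup (Fin 2) F) : Matrix (Fin 2) (Fin 2) F) =
      (A : Matrix (Fin 2) (Fin 2) F) * (B : Matrix (Fin 2) (Fin 2) F) :=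
  Matrix.SpecialLinearGroup.coe_mul A B

theorem x2_mul (s t : F) : x2 s * x2 t = x2 (s + t) := Subtype.ext ((coe2_mul _ _).trans (by
  simp [x2, add_comm]))

theorem x2_zero : x2 (0 : F) = 1 := Subtype.ext (by simp [x2, one_fin_two])

theorem y2_mul (s t : F) : y2 s * y2 t = y2 (s + t) := Subtype.ext ((coe2_mul _ _).trans (by
  simp [y2]))

theorem y2_zero : y2 (0 : F) = 1 := Subtype.ext (by simp [y2, one_fin_two])

theorem d2_mul (c d : Fˣ) : d2 c * d2 d = d2 (c * d) := Subtype.ext ((coe2_mul _ _).trans (by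
  simp [d2, mul_comm]))

theorem d2_one : d2 (1 : Fˣ) = 1 := Subtype.ext (by simp [d2, one_fin_two])

theorem x2_inv (t : F) : (x2 t)⁻¹ = x2 (-t) :=
  inv_eq_of_mul_eq_one_right (by rw [x2_mul, add_neg_cancel, x2_zero])

theorem s2_x2 (t : F) : s2 * x2 t = y2 (-t) * s2 := Subtype.ext ((coe2_mul _ _).trans ((by
  simp [s2, x2, y2] : _ = _).trans (coe2_mul _ _).symm))

theorem x2_s2 (t : Fˣ) : x2 (t : F) = y2 ((t⁻¹ : Fˣ) : F) * d2 t * x2 (-((t⁻¹ : Fˣ) : F)) * s2 :=
  Subtype.ext (by
    rw [coe2_mul, coe2_mul, coe2_mul]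
    simp [s2, x2, y2, d2])

section Emb

variable {a b : Fin n}

theorem lt_of_succ (h : (b : ℕ) = a + 1) : a < b := Fin.lt_def.2 (by omega)

theorem isUp_em_x2 (h : (b : ℕ) = a + 1) (t : F) :
    IsUp ((em (lt_of_succ h).ne (x2 t) : SpecialLinearGroup (Fin n) F) :
      Matrix (Fin n) (Fin n) F) := by
  have hab := lt_of_succ h
  refine ⟨fun i => ?_, fun i j hij => ?_⟩
  · rw [em_apply, emM_apply]
    by_cases h1 : i = a <;> by_cases h2 : i = b <;> simp_all [x2]
  · rw [em_apply, emM_apply, one_apply_ne hij.ne']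
    by_cases h1 : i = a <;> by_cases h2 : i = b <;>
      by_cases h3 : j = a <;> by_cases h4 : j = b <;> simp_all [x2, hab.ne'] <;> omega

theorem isLo_em_y2 (h : (b : ℕ) = a + 1) (t : F) :
    IsLo ((em (lt_of_succ h).ne (y2 t) : SpecialLinearGroup (Fin n) F) :
      Matrix (Fin n) (Fin n) F) := by
  have hab := lt_of_succ h
  refine ⟨fun i => ?_, fun i j hij => ?_⟩
  · rw [em_apply, emM_apply]
    by_cases h1 : i = a <;> by_cases h2 : i = b <;> simp_all [y2]
  · rw [em_apply, emM_apply, one_apply_ne hij.ne]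
    by_cases h1 : i = a <;> by_cases h2 : i = b <;>
      by_cases h3 : j = a <;> by_cases h4 : j = b <;> simp_all [y2, hab.ne'] <;> omega

theorem isMono_em_d2 (h : (b : ℕ) = a + 1) (c : Fˣ) :
    IsMono id ((em (lt_of_succ h).ne (d2 c) : SpecialLinearGroup (Fin n) F) :
      Matrix (Fin n) (Fin n) F) := by
  intro i j hij
  rw [em_apply, emM_apply, one_apply_ne (show i ≠ j from fun e => hij e.symm)]
  by_cases h1 : i = a <;> by_cases h2 : i = b <;>
    by_cases h3 : j = a <;> by_cases h4 : j = b <;> simp_all [d2]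

theorem em_d2_diag (h : (b : ℕ) = a + 1) (c : Fˣ) (i : Fin n) :
    ((em (lt_of_succ h).ne (d2 c) : SpecialLinearGroup (Fin n) F) : Matrix (Fin n) (Fin n) F) i i =
      if i = a then (c : F) else if i = b then ((c⁻¹ : Fˣ) : F) else 1 := by
  have hab := lt_of_succ h
  rw [em_apply, emM_apply]
  by_cases h1 : i = a <;> by_cases h2 : i = b <;> simp_all [d2]

theorem isMono_em_s2 (h : (b : ℕ) = a + 1) :
    IsMono (Equiv.swap a b) ((em (lt_of_succ h).ne s2 : SpecialLinearGroup (Fin n) F) :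
      Matrix (Fin n) (Fin n) F) := by
  have hab := lt_of_succ h
  intro i j hij
  rw [em_apply, emM_apply]
  by_cases h1 : i = a <;> by_cases h2 : i = b <;>
    by_cases h3 : j = a <;> by_cases h4 : j = b <;>
    simp_all [s2, Matrix.one_apply, hab.ne, hab.ne', Equiv.swap_apply_of_ne_of_ne, eq_comm]

theorem isUp_conj_s2 (h : (b : ℕ) = a + 1) {v : SpecialLinearGroup (Fin n) F}
    (hv : IsUp (v : Matrix (Fin n) (Fin n) F)) (hv0 : (v : Matrix (Fin n) (Fin n) F) a b = 0) :
    IsUp ((em (lt_of_succ h).ne s2 * v * (em (lt_of_succ h).ne s2)⁻¹ :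
      SpecialLinearGroup (Fin n) F) : Matrix (Fin n) (Fin n) F) := by
  refine ⟨fun i => (isMono_em_s2 h).conj_diag (Equiv.bijective _) i (hv.1 _), fun i j hij =>
    (isMono_em_s2 h).conj_zero (Equiv.bijective _) i j ?_⟩
  rcases lt_trichotomy (Equiv.swap a b j) (Equiv.swap a b i) with hlt | heq | hgt
  · exact hv.2 _ _ hlt
  · exact absurd ((Equiv.swap a b).injective heq) hij.ne
  · have hij' : (j : ℕ) < i := hij
    have hgt' : (Equiv.swap a b i : ℕ) < Equiv.swap a b j := hgt
    have : i = b ∧ j = a := by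
      simp only [Equiv.swap_apply_def] at hgt'
      split_ifs at hgt' <;> simp_all [Fin.ext_iff] <;> omega
    rw [this.1, this.2, Equiv.swap_apply_left, Equiv.swap_apply_right]
    exact hv0

theorem em_x2_apply (h : (b : ℕ) = a + 1) (t : F) :
    ((em (lt_of_succ h).ne (x2 t) : SpecialLinearGroup (Fin n) F) :
      Matrix (Fin n) (Fin n) F) a b = t := by
  rw [em_apply, emM_apply]
  simp [x2, (lt_of_succ h).ne, (lt_of_succ h).ne']

theorem em_y2_mul_apply (h : (b : ℕ) = a + 1) (t : F) {v : SpecialLinearGroup (Fin n) F}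
    (hv : IsLo (v : Matrix (Fin n) (Fin n) F)) :
    ((em (lt_of_succ h).ne (y2 t) * v : SpecialLinearGroup (Fin n) F) :
      Matrix (Fin n) (Fin n) F) b a = t + (v : Matrix (Fin n) (Fin n) F) b a := by
  have hne := (lt_of_succ h).ne
  show (emM a b (y2 t : Matrix (Fin 2) (Fin 2) F) * (v : Matrix (Fin n) (Fin n) F)) b a = _
  rw [mul_apply, Finset.sum_eq_add a b hne, hv.1]
  · rw [emM_apply, emM_apply]
    simp [y2, hne, hne.symm]
  · intro k _ hk
    rw [emM_apply]
    simp [y2, hne.symm, hk.1, hk.2, Ne.symm hk.2]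
  · simp
  · simp

end Emb

/-- Diagonal elements fixing a given element are generated by the simple coroots. -/
theorem diag_mem {K : Subgroup (SpecialLinearGroup (Fin n) F)}
    (hK : ∀ (a b : Fin n) (h : (b : ℕ) = a + 1) (c : Fˣ), em (lt_of_succ h).ne (d2 c) ∈ K)
    {t : SpecialLinearGroup (Fin n) F} (ht : IsMono id (t : Matrix (Fin n) (Fin n) F)) : t ∈ K := by
  suffices key : ∀ k : ℕ, ∀ t : SpecialLinearGroup (Fin n) F,
      IsMono id (t : Matrix (Fin n) (Fin n) F) →
      (∀ i : Fin n, k < (i : ℕ) → (t : Matrix (Fin n) (Fin n) F) i i = 1) → t ∈ K from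
    key n t ht fun i hi => absurd i.isLt (by omega)
  intro k
  induction k with
  | zero =>
    intro t ht h1
    have hdiag : (t : Matrix (Fin n) (Fin n) F) = diagonal fun i => (t : Matrix _ _ F) i i := by
      ext i j
      by_cases hij : i = j
      · rw [hij, diagonal_apply_eq]
      · rw [diagonal_apply_ne _ hij, ht i j (Ne.symm hij)]
    have h1' : t = 1 := Subtype.ext (by
      show (t : Matrix (Fin n) (Fin n) F) = 1
      rw [hdiag, ← diagonal_one]
      refine congrArg diagonal (funext fun i => ?_)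
      by_cases hi : (i : ℕ) = 0
      · have hd := t.2
        rw [hdiag, det_diagonal, Finset.prod_eq_single i] at hd
        · exact hd
        · intro j _ hj
          refine h1 j ?_
          have := Fin.val_ne_of_ne hj
          omega
        · simp
      · exact h1 i (Nat.pos_of_ne_zero hi))
    rw [h1']
    exact one_mem K
  | succ k ih =>
    intro t ht h1
    by_cases hk : k + 1 < n
    · let a : Fin n := ⟨k, by omega⟩
      let b : Fin n := ⟨k + 1, hk⟩
      have hab : (b : ℕ) = a + 1 := rfl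
      have hb : (t : Matrix (Fin n) (Fin n) F) b b ≠ 0 := ht.apply_ne_zero b
      set α := em (lt_of_succ hab).ne (d2 (Units.mk0 _ hb)) with hα
      have hmul : ∀ i j, ((α * t : SpecialLinearGroup (Fin n) F) : Matrix (Fin n) (Fin n) F) i j =
          (α : Matrix (Fin n) (Fin n) F) i i * (t : Matrix (Fin n) (Fin n) F) i j := fun i j => by
        show ((α : Matrix (Fin n) (Fin n) F) * (t : Matrix (Fin n) (Fin n) F)) i j = _
        rw [mul_apply, Finset.sum_eq_single i]
        · intro l _ hl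
          rw [hα, isMono_em_d2 hab _ i l hl, zero_mul]
        · simp
      have hmem : α * t ∈ K := ih (α * t) (fun i j hij => by rw [hmul, ht i j hij, mul_zero])
        fun i hi => by
          rw [hmul, hα, em_d2_diag hab]
          by_cases hib : i = b
          · rw [if_neg, if_pos hib, hib]
            · simp [hb]
            · intro hia
              rw [hia] at hi
              exact lt_irrefl _ hi
          · rw [if_neg, if_neg hib, h1 i, mul_one]
            · have := Fin.val_ne_of_ne hib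
              show k + 1 < (i : ℕ)
              have : (b : ℕ) = k + 1 := rfl
              omega
            · intro hia
              rw [hia] at hi
              exact lt_irrefl _ hi
      exact (K.mul_mem_cancel_left (hK a b hab _)).1 hmem
    · exact ih t ht fun i hi => h1 i (by have := i.isLt; omega)

variable [Finite F] {p : ℕ} [Fact p.Prime] [CharP F p] {M : Ideal AlgInt} [M.IsPrime]

/-- The product of a block with the sum over the unitriangular group. -/
noncomputable def fU (M : Ideal AlgInt) [M.IsPrime]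
    (B : Set (IrrCharacter (SpecialLinearGroup (Fin n) F))) :
    MonoidAlgebra (ResField M) (SpecialLinearGroup (Fin n) F) :=
  bar M B * indic (ResField M) (upU F n : Set (SpecialLinearGroup (Fin n) F))

theorem single_mul_fU (B : Set (IrrCharacter (SpecialLinearGroup (Fin n) F)))
    {u : SpecialLinearGroup (Fin n) F} (hu : u ∈ upU F n) :
    MonoidAlgebra.single u 1 * fU M B = fU M B := by
  rw [fU, ← mul_assoc, ← ((isClassCoeff_bar B).commute _).eq, mul_assoc, single_mul_indic _ hu]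

theorem fU_mul_single (B : Set (IrrCharacter (SpecialLinearGroup (Fin n) F)))
    {u : SpecialLinearGroup (Fin n) F} (hu : u ∈ upU F n) :
    fU M B * MonoidAlgebra.single u 1 = fU M B := by
  rw [fU, mul_assoc, indic_mul_single _ hu]

/-- Bi-invariant multiples of a block of defect zero vanish outside general position. -/
theorem vanish (hM : IsPModular p M) {B : Set (IrrCharacter (SpecialLinearGroup (Fin n) F))}
    (hB : IsPBlock M B) (h0 : blockDefect p B = 0)
    {h : MonoidAlgebra (ResField M) (SpecialLinearGroup (Fin n) F)}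
    (hl : ∀ u ∈ upU F n, MonoidAlgebra.single u 1 * h = h)
    (hr : ∀ u ∈ upU F n, h * MonoidAlgebra.single u 1 = h)
    {y : SpecialLinearGroup (Fin n) F} (hy : ¬ IsOm y) : (bar M B * h).coeff y = 0 := by
  simp only [IsOm, not_forall, exists_prop] at hy
  obtain ⟨a, ha, hay, ha1⟩ := hy
  obtain ⟨k, hk⟩ := IsPGroup.iff_orderOf.1 isPGroup_upU (⟨a, ha⟩ : upU F n)
  rw [Subgroup.orderOf_mk] at hk
  cases k with
  | zero => exact absurd (orderOf_eq_one_iff.1 (by rw [hk, pow_zero])) ha1
  | succ k =>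
    have hap : (a ^ p ^ k) ^ p = 1 := by rw [← pow_mul, ← pow_succ, ← hk, pow_orderOf_eq_one]
    have hne : a ^ p ^ k ≠ 1 := fun h' => by
      have h1 := Nat.le_of_dvd (pow_pos hM.1.pos k) (orderOf_dvd_of_pow_eq_one h')
      rw [hk, Nat.pow_le_pow_iff_right hM.1.one_lt] at h1
      omega
    refine coeff_bar_mul_eq_zero hM hB h0 hne hap (a' := (y⁻¹ * a * y) ^ p ^ k) ?_
      (hl _ (pow_mem ha _)) (hr _ (pow_mem hay _))
    calc y⁻¹ * a ^ p ^ k * y = y⁻¹ * a ^ p ^ k * (y⁻¹)⁻¹ := by rw [inv_inv]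
      _ = (y⁻¹ * a * y) ^ p ^ k := by rw [← conj_pow, inv_inv]

theorem coeff_fU_eq_zero (hM : IsPModular p M)
    {B : Set (IrrCharacter (SpecialLinearGroup (Fin n) F))}
    (hB : IsPBlock M B) (h0 : blockDefect p B = 0) {y : SpecialLinearGroup (Fin n) F}
    (hy : ¬ IsOm y) : (fU M B).coeff y = 0 :=
  vanish hM hB h0 (fun _ hu => single_mul_indic _ hu) (fun _ hu => indic_mul_single _ hu) hy

section Invariant

variable {k : Type*} [CommRing k] {h : MonoidAlgebra k (SpecialLinearGroup (Fin n) F)}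

theorem coeff_bi (hl : ∀ u ∈ upU F n, MonoidAlgebra.single u 1 * h = h)
    (hr : ∀ u ∈ upU F n, h * MonoidAlgebra.single u 1 = h)
    {u u' y : SpecialLinearGroup (Fin n) F} (hu : u ∈ upU F n) (hu' : u' ∈ upU F n) :
    h.coeff (u * y * u') = h.coeff y := by
  conv_lhs => rw [← hl u hu, ← hr u' hu', ← mul_assoc]
  rw [coeff_mul_single_one, coeff_single_one_mul,
    show u⁻¹ * (u * y * u' * u'⁻¹) = y by group]

theorem coeff_cell (hl : ∀ u ∈ upU F n, MonoidAlgebra.single u 1 * h = h)
    (hr : ∀ u ∈ upU F n, h * MonoidAlgebra.single u 1 = h)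
    {u v m : SpecialLinearGroup (Fin n) F} (hu : u ∈ upU F n)
    (hv : IsLo (v : Matrix (Fin n) (Fin n) F))
    (hm : IsMono Fin.rev (m : Matrix (Fin n) (Fin n) F)) :
    h.coeff (u * v * m) = h.coeff m := by
  rw [show u * v * m = u * m * (m⁻¹ * v * m) by group]
  exact coeff_bi hl hr hu (isUp_inv_conj_anti hm hv)

end Invariant

/-- A block of defect zero is fixed by the simple coroots after summing over the unitriangular
group. -/
theorem coroot_mul_fU (hM : IsPModular p M) {B : Set (IrrCharacter (SpecialLinearGroup (Fin n) F))}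
    (hB : IsPBlock M B) (h0 : blockDefect p B = 0) {a b : Fin n} (hab : (b : ℕ) = a + 1)
    (c : Fˣ) :
    MonoidAlgebra.single (em (lt_of_succ hab).ne (d2 c)) 1 * fU M B = fU M B := by
  classical
  haveI := Fintype.ofFinite F
  haveI := Fintype.ofFinite (SpecialLinearGroup (Fin n) F)
  haveI := Fintype.ofFinite (upU F n : Set (SpecialLinearGroup (Fin n) F))
  have hne := (lt_of_succ hab).ne
  set f := fU M B with hf
  set X : F → SpecialLinearGroup (Fin n) F := fun t => em hne (x2 t) with hX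
  set Y : F → SpecialLinearGroup (Fin n) F := fun t => em hne (y2 t) with hY
  set s : SpecialLinearGroup (Fin n) F := em hne s2 with hs
  set α : Fˣ → SpecialLinearGroup (Fin n) F := fun t => em hne (d2 t) with hα
  have hYlo : ∀ t, IsLo (Y t : Matrix (Fin n) (Fin n) F) := isLo_em_y2 hab
  have hXup : ∀ t, X t ∈ upU F n := isUp_em_x2 hab
  have hαconj : ∀ (t : Fˣ) (x : SpecialLinearGroup (Fin n) F), x ∈ upU F n →
      α t * x * (α t)⁻¹ ∈ upU F n := fun t x hx => isUp_conj_diag (isMono_em_d2 hab t) hx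
  have hαinv : ∀ t : Fˣ, (α t)⁻¹ = α t⁻¹ := fun t => by
    simp only [hα]
    rw [← map_inv]
    congr 1
    exact inv_eq_of_mul_eq_one_right (by rw [d2_mul, mul_inv_cancel, d2_one])
  have hαnorm : ∀ (t : Fˣ) (x : SpecialLinearGroup (Fin n) F),
      x ∈ upU F n ↔ α t * x * (α t)⁻¹ ∈ upU F n := fun t x => ⟨hαconj t x, fun hx => by
    have h1 := hαconj t⁻¹ _ hx
    rw [← hαinv] at h1
    simpa [mul_assoc] using h1⟩
  have hcomm : MonoidAlgebra.single (α c) 1 * f = f * MonoidAlgebra.single (α c) 1 := by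
    rw [hf, fU, ← mul_assoc, ← ((isClassCoeff_bar B).commute _).eq, mul_assoc,
      single_mul_indic_comm _ (hαnorm c), mul_assoc]
  have hfl : ∀ u ∈ upU F n, MonoidAlgebra.single u 1 * f = f := fun _ hu => single_mul_fU B hu
  have hfr : ∀ u ∈ upU F n, f * MonoidAlgebra.single u 1 = f := fun _ hu => fU_mul_single B hu
  -- the element `h = 𝐒 s X`
  set Xs : MonoidAlgebra (ResField M) (SpecialLinearGroup (Fin n) F) :=
    ∑ t : F, MonoidAlgebra.single (X t) 1 with hXs
  set h := indic (ResField M) (upU F n : Set (SpecialLinearGroup (Fin n) F)) *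
    MonoidAlgebra.single s 1 * Xs with hh
  have hhl : ∀ u ∈ upU F n, MonoidAlgebra.single u 1 * h = h := fun u hu => by
    rw [hh, ← mul_assoc, ← mul_assoc, single_mul_indic _ hu]
  have hhr : ∀ u ∈ upU F n, h * MonoidAlgebra.single u 1 = h := by
    intro u hu
    rw [hh, hXs, Finset.mul_sum, Finset.sum_mul]
    refine Fintype.sum_equiv (Equiv.addRight ((u : Matrix (Fin n) (Fin n) F) a b)) _ _ fun t => ?_
    set w := X t * u * (X (t + (u : Matrix (Fin n) (Fin n) F) a b))⁻¹ with hw
    have hwU : w ∈ upU F n := mul_mem (mul_mem (hXup _) hu) (inv_mem (hXup _))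
    have hw0 : (w : Matrix (Fin n) (Fin n) F) a b = 0 := by
      have h1 : (w * X (t + (u : Matrix (Fin n) (Fin n) F) a b) : SpecialLinearGroup (Fin n) F) =
          X t * u := by rw [hw]; group
      have h2 := congrArg (fun g : SpecialLinearGroup (Fin n) F =>
        (g : Matrix (Fin n) (Fin n) F) a b) h1
      have e1 := (show IsUp (w : Matrix (Fin n) (Fin n) F) from hwU).mul_apply_succ
        (isUp_em_x2 hab (t + (u : Matrix (Fin n) (Fin n) F) a b)) hab
      have e2 := (isUp_em_x2 hab t).mul_apply_succ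
        (show IsUp (u : Matrix (Fin n) (Fin n) F) from hu) hab
      rw [em_x2_apply hab] at e1 e2
      have h3 : (w : Matrix (Fin n) (Fin n) F) a b + (t + (u : Matrix (Fin n) (Fin n) F) a b) =
          t + (u : Matrix (Fin n) (Fin n) F) a b := e1.symm.trans (h2.trans e2)
      exact add_eq_right.1 h3
    have hsw : s * w * s⁻¹ ∈ upU F n := isUp_conj_s2 hab hwU hw0
    simp only [Equiv.coe_addRight]
    simp only [mul_assoc (indic (ResField M) _), MonoidAlgebra.single_mul_single, one_mul]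
    rw [
      show s * X t * u = (s * w * s⁻¹) * (s * X (t + (u : Matrix (Fin n) (Fin n) F) a b)) by
        rw [hw]; group]
    conv_rhs => rw [← indic_mul_single (upU F n) hsw, mul_assoc, MonoidAlgebra.single_mul_single,
      one_mul]
  set g := bar M B * h with hg
  have hgf : g = f * MonoidAlgebra.single s 1 * Xs := by
    rw [hg, hh, hf, fU]
    simp only [mul_assoc]
  have hgl : ∀ u ∈ upU F n, MonoidAlgebra.single u 1 * g = g := fun u hu => by
    rw [hg, ← mul_assoc, ← ((isClassCoeff_bar B).commute _).eq, mul_assoc, hhl u hu]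
  have hgr : ∀ u ∈ upU F n, g * MonoidAlgebra.single u 1 = g := fun u hu => by
    rw [hg, mul_assoc, hhr u hu]
  have hgy : ∀ y, g.coeff y = ∑ t : F, f.coeff (y * X t * s⁻¹) := fun y => by
    rw [hgf, mul_assoc, hXs, Finset.mul_sum, Finset.mul_sum, coeff_sum_apply]
    refine Fintype.sum_equiv (Equiv.neg F) _ _ fun t => ?_
    rw [MonoidAlgebra.single_mul_single, one_mul, coeff_mul_single_one]
    simp only [Equiv.neg_apply, hX]
    rw [_root_.mul_inv_rev, ← map_inv (em hne), x2_inv]
    simp only [mul_assoc]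
  have hfc : ∀ z, f.coeff ((α c)⁻¹ * z) = f.coeff (z * (α c)⁻¹) := fun z => by
    rw [← coeff_single_one_mul, ← coeff_mul_single_one, hcomm]
  have hαdiag : ∀ t, IsMono id (α t : Matrix (Fin n) (Fin n) F) := isMono_em_d2 hab
  -- values at monomial elements
  have hval : ∀ m : SpecialLinearGroup (Fin n) F, IsMono Fin.rev (m : Matrix (Fin n) (Fin n) F) →
      ∀ t : Fˣ, f.coeff (m * X (t : F) * s⁻¹) = f.coeff (m * α t) ∧
        f.coeff ((α c)⁻¹ * (m * X (t : F) * s⁻¹)) = f.coeff ((α c)⁻¹ * (m * α t)) := by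
    intro m hm t
    have h1 : m * X (t : F) * s⁻¹ = (m * Y ((t⁻¹ : Fˣ) : F) * m⁻¹) * (m * α t) *
        X (-((t⁻¹ : Fˣ) : F)) := by
      simp only [hX, hY, hα, hs, x2_s2 t, map_mul]
      group
    have h2 : m * Y ((t⁻¹ : Fˣ) : F) * m⁻¹ ∈ upU F n := isUp_conj_anti hm (hYlo _)
    refine ⟨by rw [h1, coeff_bi hfl hfr h2 (hXup _)], ?_⟩
    have h3 : (α c)⁻¹ * (m * Y ((t⁻¹ : Fˣ) : F) * m⁻¹) * α c ∈ upU F n := by
      have := hαconj c⁻¹ _ h2
      rwa [← hαinv, inv_inv] at this
    rw [h1, show (α c)⁻¹ * ((m * Y ((t⁻¹ : Fˣ) : F) * m⁻¹) * (m * α t) *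
        X (-((t⁻¹ : Fˣ) : F))) = ((α c)⁻¹ * (m * Y ((t⁻¹ : Fˣ) : F) * m⁻¹) * α c) *
        ((α c)⁻¹ * (m * α t)) * X (-((t⁻¹ : Fˣ) : F)) by group,
      coeff_bi hfl hfr h3 (hXup _)]
  have hzero : ∀ m : SpecialLinearGroup (Fin n) F, IsMono Fin.rev (m : Matrix (Fin n) (Fin n) F) →
      f.coeff (m * X 0 * s⁻¹) = 0 ∧ f.coeff ((α c)⁻¹ * (m * X 0 * s⁻¹)) = 0 := by
    intro m hm
    have hX0 : X 0 = 1 := by simp only [hX, x2_zero, map_one]
    rw [hX0, mul_one]
    set u0 := m * Y 1 * m⁻¹ with hu0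
    have hu0U : u0 ∈ upU F n := isUp_conj_anti hm (hYlo _)
    have hsx : s * Y 1 * s⁻¹ = X (-1) := by
      simp only [hs, hY, hX, ← map_inv, ← map_mul]
      congr 1
      rw [mul_inv_eq_iff_eq_mul]
      exact Subtype.ext ((coe2_mul _ _).trans ((by simp [s2, x2, y2] : _ = _).trans (coe2_mul _ _).symm))
    have hu01 : u0 ≠ 1 := fun h1 => by
      rw [hu0, conj_eq_one_iff] at h1
      have := em_y2_mul_apply hab (1 : F) (v := 1)
        ⟨fun i => one_apply_eq i, fun i j hij => one_apply_ne hij.ne⟩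
      simp only [hY] at h1
      rw [h1, one_mul] at this
      have hne' := (lt_of_succ hab).ne'
      change (1 : Matrix (Fin n) (Fin n) F) b a = 1 + (1 : Matrix (Fin n) (Fin n) F) b a at this
      rw [one_apply_ne hne', add_zero] at this
      exact zero_ne_one this
    have hy0 : ¬ IsOm (m * s⁻¹) := IsOm.not_of hu0U (by
      rw [hu0, show (m * s⁻¹)⁻¹ * (m * Y 1 * m⁻¹) * (m * s⁻¹) = s * Y 1 * s⁻¹ by group, hsx]
      exact hXup _) hu01
    have hy1 : ¬ IsOm ((α c)⁻¹ * (m * s⁻¹)) := IsOm.not_of (a := (α c)⁻¹ * u0 * α c) (by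
      have := hαconj c⁻¹ _ hu0U
      rwa [← hαinv, inv_inv] at this) (by
      rw [show ((α c)⁻¹ * (m * s⁻¹))⁻¹ * ((α c)⁻¹ * u0 * α c) * ((α c)⁻¹ * (m * s⁻¹)) =
        s * Y 1 * s⁻¹ by rw [hu0]; group, hsx]
      exact hXup _) (fun h1 => hu01 (by
        rw [show u0 = α c * ((α c)⁻¹ * u0 * α c) * (α c)⁻¹ by group, h1]; group))
    exact ⟨coeff_fU_eq_zero hM hB h0 hy0, coeff_fU_eq_zero hM hB h0 hy1⟩
  -- `g` is invariant
  have hgm : ∀ m : SpecialLinearGroup (Fin n) F, IsMono Fin.rev (m : Matrix (Fin n) (Fin n) F) →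
      g.coeff ((α c)⁻¹ * m) = g.coeff m := by
    intro m hm
    rw [hgy, hgy]
    refine Fintype.sum_equiv (Equiv.mulRight₀ ((c⁻¹ : Fˣ) : F) (Units.ne_zero _)) _ _ fun t => ?_
    rw [show (α c)⁻¹ * m * X t * s⁻¹ = (α c)⁻¹ * (m * X t * s⁻¹) by group]
    show f.coeff ((α c)⁻¹ * (m * X t * s⁻¹)) = f.coeff (m * X (t * ((c⁻¹ : Fˣ) : F)) * s⁻¹)
    by_cases ht : t = 0
    · subst ht
      rw [zero_mul, (hzero m hm).2, (hzero m hm).1]
    · lift t to Fˣ using isUnit_iff_ne_zero.2 ht
      rw [(hval m hm t).2, ← Units.val_mul, (hval m hm (t * c⁻¹)).1, hfc, mul_assoc, hαinv]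
      simp only [hα, ← map_mul, d2_mul]
  have hαg : MonoidAlgebra.single (α c) 1 * g = g := by
    refine alg_ext fun y => ?_
    rw [coeff_single_one_mul]
    by_cases hy : IsOm y
    · obtain ⟨u, hu, v, m, hv, hm, rfl⟩ := hy.exists_cell
      rw [coeff_cell hgl hgr hu hv hm, ← hgm m hm,
        show (α c)⁻¹ * (u * v * m) = ((α c)⁻¹ * u * α c) * ((α c)⁻¹ * m) * (m⁻¹ * v * m) by group]
      refine coeff_bi hgl hgr ?_ (isUp_inv_conj_anti hm hv)
      have := hαconj c⁻¹ _ hu
      rwa [← hαinv, inv_inv] at this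
    · rw [hg, vanish hM hB h0 hhl hhr hy, vanish hM hB h0 hhl hhr]
      intro h1
      refine hy fun x hx hxy => ?_
      have h2 : (α c)⁻¹ * x * α c ∈ upU F n := by
        have := hαconj c⁻¹ _ hx
        rwa [← hαinv, inv_inv] at this
      have h3 := h1 _ h2 (by
        rw [show ((α c)⁻¹ * y)⁻¹ * ((α c)⁻¹ * x * α c) * ((α c)⁻¹ * y) = y⁻¹ * x * y by group]
        exact hxy)
      rw [show x = α c * ((α c)⁻¹ * x * α c) * (α c)⁻¹ by group, h3]
      group
  -- `f` lies in the right ideal of `g`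
  set K : MonoidAlgebra (ResField M) (SpecialLinearGroup (Fin n) F) :=
    ∑ t : F, MonoidAlgebra.single (Y t) 1 with hK
  have hKs : MonoidAlgebra.single s (1 : ResField M) * Xs * MonoidAlgebra.single s⁻¹ 1 = K := by
    rw [hXs, Finset.mul_sum, Finset.sum_mul, hK]
    refine Fintype.sum_equiv (Equiv.neg F) _ _ fun t => ?_
    rw [MonoidAlgebra.single_mul_single, MonoidAlgebra.single_mul_single, one_mul, one_mul]
    simp only [Equiv.neg_apply, hX, hY, hs, ← map_mul, s2_x2, ← map_inv, mul_inv_cancel_right]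
  let P : SpecialLinearGroup (Fin n) F → Prop := fun z => ∃ v m : SpecialLinearGroup (Fin n) F,
    IsLo (v : Matrix (Fin n) (Fin n) F) ∧ (v : Matrix (Fin n) (Fin n) F) b a = 0 ∧
      IsMono Fin.rev (m : Matrix (Fin n) (Fin n) F) ∧ z = v * m
  set R : MonoidAlgebra (ResField M) (SpecialLinearGroup (Fin n) F) :=
    ofFun fun z => if P z then f.coeff z else 0 with hR
  have hfac : f = indic (ResField M) (upU F n : Set (SpecialLinearGroup (Fin n) F)) * (K * R) := by
    refine alg_ext fun z => ?_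
    rw [coeff_indic_mul]
    simp only [hK, Finset.sum_mul, coeff_sum_apply, coeff_single_one_mul, hR, coeff_ofFun]
    rw [← Fintype.sum_prod_type' (fun (u : (upU F n : Set (SpecialLinearGroup (Fin n) F))) (t : F) =>
      if P ((Y t)⁻¹ * ((u : SpecialLinearGroup (Fin n) F)⁻¹ * z))
        then f.coeff ((Y t)⁻¹ * ((u : SpecialLinearGroup (Fin n) F)⁻¹ * z)) else 0)]
    by_cases hrep : ∃ u ∈ upU F n, ∃ v m : SpecialLinearGroup (Fin n) F,
        IsLo (v : Matrix (Fin n) (Fin n) F) ∧
        IsMono Fin.rev (m : Matrix (Fin n) (Fin n) F) ∧ z = u * v * m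
    · obtain ⟨u, hu, v, m, hv, hm, hz⟩ := hrep
      set t := (v : Matrix (Fin n) (Fin n) F) b a with ht
      set v' := Y (-t) * v with hv'def
      have hv' : IsLo (v' : Matrix (Fin n) (Fin n) F) := (hYlo _).mul hv
      have hv'0 : (v' : Matrix (Fin n) (Fin n) F) b a = 0 := by
        simp only [hv'def, hY]
        rw [em_y2_mul_apply hab _ hv, neg_add_cancel]
      have hYt : (Y t)⁻¹ = Y (-t) := by
        simp only [hY, ← map_inv]
        congr 1
        exact inv_eq_of_mul_eq_one_right (by rw [y2_mul, add_neg_cancel, y2_zero])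
      have hzz : (Y t)⁻¹ * (u⁻¹ * z) = v' * m := by rw [hz, hv'def, hYt]; group
      rw [Finset.sum_eq_single (((⟨u, hu⟩, t)) :
        ↥((upU F n : Set (SpecialLinearGroup (Fin n) F))) × F)]
      · simp only
        rw [hzz, if_pos ⟨v', m, hv', hv'0, hm, rfl⟩, hz, coeff_cell hfl hfr hu hv hm,
          ← one_mul v', coeff_cell hfl hfr (one_mem _) hv' hm]
      · rintro ⟨⟨u₁, hu₁⟩, t₁⟩ _ hne1
        simp only
        rw [if_neg]
        rintro ⟨v₁, m₁, hv₁, hv₁0, hm₁, he⟩
        have h1 : u * v * m = u₁ * (Y t₁ * v₁) * m₁ := by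
          rw [← hz, show u₁ * (Y t₁ * v₁) * m₁ = u₁ * Y t₁ * (v₁ * m₁) by group, ← he]
          group
        obtain ⟨e1, e2, -⟩ := cell_unique hu hu₁ hv ((hYlo _).mul hv₁) hm hm₁ h1
        refine hne1 (Prod.ext (Subtype.ext e1.symm) ?_)
        show t₁ = t
        simp only [ht, e2, hY]
        rw [em_y2_mul_apply hab _ hv₁, hv₁0, add_zero]
      · exact fun h1 => absurd (Finset.mem_univ _) h1
    · rw [Finset.sum_eq_zero, coeff_fU_eq_zero hM hB h0]
      · intro hy
        obtain ⟨u, hu, v, m, hv, hm, hz⟩ := hy.exists_cell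
        exact hrep ⟨u, hu, v, m, hv, hm, hz⟩
      · rintro ⟨⟨u₁, hu₁⟩, t₁⟩ _
        simp only
        rw [if_neg]
        rintro ⟨v₁, m₁, hv₁, -, hm₁, he⟩
        refine hrep ⟨u₁, hu₁, Y t₁ * v₁, m₁, (hYlo _).mul hv₁, hm₁, ?_⟩
        rw [show u₁ * (Y t₁ * v₁) * m₁ = u₁ * Y t₁ * (v₁ * m₁) by group, ← he]
        group
  have hef : bar M B * f = f := by
    rw [hf, fU, ← mul_assoc, (isIdempotentElem_bar hB).eq]
  have hfg : f = g * (MonoidAlgebra.single s⁻¹ 1 * R) := by
    conv_lhs => rw [← hef, hfac, ← hKs]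
    rw [hg, hh]
    simp only [mul_assoc]
  show MonoidAlgebra.single (α c) 1 * f = f
  rw [hfg, ← mul_assoc, hαg]

/-- Diagonal elements fix the sum. -/
theorem diag_mul_fU (hM : IsPModular p M) {B : Set (IrrCharacter (SpecialLinearGroup (Fin n) F))}
    (hB : IsPBlock M B) (h0 : blockDefect p B = 0) {t : SpecialLinearGroup (Fin n) F}
    (ht : IsMono id (t : Matrix (Fin n) (Fin n) F)) :
    MonoidAlgebra.single t 1 * fU M B = fU M B := by
  let K : Subgroup (SpecialLinearGroup (Fin n) F) :=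
    { carrier := {t | MonoidAlgebra.single t (1 : ResField M) * fU M B = fU M B}
      one_mem' := by
        show MonoidAlgebra.single (1 : SpecialLinearGroup (Fin n) F) (1 : ResField M) * _ = _
        rw [← MonoidAlgebra.one_def, one_mul]
      mul_mem' := fun {x y} hx hy => by
        show MonoidAlgebra.single (x * y) (1 : ResField M) * _ = _
        rw [show MonoidAlgebra.single (x * y) (1 : ResField M) = MonoidAlgebra.single x 1 *
          MonoidAlgebra.single y 1 by rw [MonoidAlgebra.single_mul_single, one_mul], mul_assoc, hy,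
          hx]
      inv_mem' := fun {x} hx => by
        show MonoidAlgebra.single x⁻¹ (1 : ResField M) * _ = _
        conv_lhs => rw [← hx, ← mul_assoc, MonoidAlgebra.single_mul_single, inv_mul_cancel, one_mul,
          ← MonoidAlgebra.one_def, one_mul] }
  exact diag_mem (K := K) (fun a b hab c => coroot_mul_fU hM hB h0 hab c) ht

theorem coeff_anti_eq (hM : IsPModular p M) {B : Set (IrrCharacter (SpecialLinearGroup (Fin n) F))}
    (hB : IsPBlock M B) (h0 : blockDefect p B = 0) {m m' : SpecialLinearGroup (Fin n) F}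
    (hm : IsMono Fin.rev (m : Matrix (Fin n) (Fin n) F))
    (hm' : IsMono Fin.rev (m' : Matrix (Fin n) (Fin n) F)) :
    (fU M B).coeff m' = (fU M B).coeff m := by
  have ht : IsMono id ((m' * m⁻¹ : SpecialLinearGroup (Fin n) F) : Matrix (Fin n) (Fin n) F) := by
    intro i k hik
    have h1 := congrArg (fun g : SpecialLinearGroup (Fin n) F =>
      (g : Matrix (Fin n) (Fin n) F) i (Fin.rev k)) (show m' * m⁻¹ * m = m' by group)
    change (((m' * m⁻¹ : SpecialLinearGroup (Fin n) F) : Matrix (Fin n) (Fin n) F) *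
      (m : Matrix (Fin n) (Fin n) F)) i (Fin.rev k) = _ at h1
    rw [mul_apply, Finset.sum_eq_single k, hm' i (Fin.rev k) fun e => hik (Fin.rev_inj.1 e)] at h1
    · exact (mul_eq_zero.1 h1).resolve_right (hm.apply_ne_zero k)
    · intro l _ hl; rw [hm l _ fun e => hl (Fin.rev_inj.1 e).symm, mul_zero]
    · simp
  conv_lhs => rw [← diag_mul_fU hM hB h0 ht]
  rw [coeff_single_one_mul, show (m' * m⁻¹)⁻¹ * m' = m by group]

/-- There is at most one block of defect zero. -/
theorem defectZero_unique (hM : IsPModular p M)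
    {B B' : Set (IrrCharacter (SpecialLinearGroup (Fin n) F))} (hB : IsPBlock M B)
    (hB' : IsPBlock M B') (h0 : blockDefect p B = 0) (h0' : blockDefect p B' = 0) : B = B' := by
  haveI : Fact p.Prime := ⟨hM.1⟩
  have hne : fU M B ≠ 0 := bar_mul_indic_ne_zero hM hB (isPGroup_upU (p := p))
  have hne' : fU M B' ≠ 0 := bar_mul_indic_ne_zero hM hB' (isPGroup_upU (p := p))
  obtain ⟨y, hy⟩ : ∃ y, (fU M B).coeff y ≠ 0 := by
    by_contra hcon
    push Not at hcon
    exact hne (alg_ext fun y => by rw [hcon y]; rfl)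
  have hOm : IsOm y := by
    by_contra h
    exact hy (coeff_fU_eq_zero hM hB h0 h)
  obtain ⟨u, hu, v, m, hv, hm, rfl⟩ := hOm.exists_cell
  rw [coeff_cell (fun _ h => single_mul_fU B h) (fun _ h => fU_mul_single B h) hu hv hm] at hy
  set l := (fU M B').coeff m / (fU M B).coeff m with hl
  have heq : fU M B' = l • fU M B := by
    refine alg_ext fun z => ?_
    rw [MonoidAlgebra.coeff_smul, Finsupp.smul_apply, smul_eq_mul]
    by_cases hz : IsOm z
    · obtain ⟨u', hu', v', m', hv', hm', rfl⟩ := hz.exists_cell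
      rw [coeff_cell (fun _ h => single_mul_fU B' h) (fun _ h => fU_mul_single B' h) hu' hv' hm',
        coeff_cell (fun _ h => single_mul_fU B h) (fun _ h => fU_mul_single B h) hu' hv' hm',
        coeff_anti_eq hM hB' h0' hm hm', coeff_anti_eq hM hB h0 hm hm', hl, div_mul_cancel₀ _ hy]
    · rw [coeff_fU_eq_zero hM hB' h0' hz, coeff_fU_eq_zero hM hB h0 hz, mul_zero]
  by_contra hBB
  refine hne' ?_
  have h1 : bar M B * fU M B' = 0 := by
    rw [fU, ← mul_assoc, bar_mul_bar_of_ne hB hB' hBB, zero_mul]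
  rw [heq, mul_smul_comm, fU, ← mul_assoc, (isIdempotentElem_bar hB).eq, ← fU] at h1
  rw [heq, h1]

/-- The centre acts trivially on a block of defect zero. -/
theorem center_defectZero (hM : IsPModular p M)
    {B : Set (IrrCharacter (SpecialLinearGroup (Fin n) F))} (hB : IsPBlock M B)
    (h0 : blockDefect p B = 0) {χ : IrrCharacter (SpecialLinearGroup (Fin n) F)} (hχ : χ ∈ B)
    {z : SpecialLinearGroup (Fin n) F} (hz : z ∈ Subgroup.center _) :
    redC M (centralChar (χ : SpecialLinearGroup (Fin n) F → ℂ) z) = 1 := by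
  haveI : Fact p.Prime := ⟨hM.1⟩
  refine redC_centralChar_eq_one hM hB hχ hz (bar_mul_indic_ne_zero hM hB (isPGroup_upU (p := p)))
    (diag_mul_fU hM hB h0 ?_)
  obtain ⟨r, -, hr⟩ := Matrix.SpecialLinearGroup.mem_center_iff.1 hz
  intro i j hij
  rw [← hr, Matrix.scalar_apply, diagonal_apply_ne _ (show i ≠ j from fun e => hij e.symm)]

end Cfsg.Agent.Lib.SLBlocks
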